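import Cfsg.Agent.H348.PPD.Crit
import Cfsg.Agent.H686.CharKit
import Cfsg.Agent.Characters.GaloisBasic
import Cfsg.Agent.Characters.GaloisIrr

/-!
# Uniqueness of the pair of noninvariant characters at a self-centralizing prime (helper348)

`S` with `|Out(S)| = 2`, `x ∈ S` of prime order `p` with `C_S(x) = ⟨x⟩` and all nontrivial powers of `x` conjugate
in `MulAut S`:

* `norm_ge` : `|χ(x) - χ(α x)|² ≥ p` if `χ(x) ≠ χ(α x)`;
* `eq_of_values` : an irreducible character with the values of `χ` at `x`, `α x` is `χ`.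
-/

set_option autoImplicit false

open scoped ComplexConjugate
open Cfsg Subgroup
open Cfsg.Agent.Characters.Core Cfsg.Agent.H794.PP Cfsg.Agent.H29.MinExt Cfsg.Agent.H681.DegBasic
open Cfsg.Agent.SmallSimple.ThetaSetup Cfsg.Agent.SmallSimple.ThetaOrtho
open Cfsg.Agent.H348.PPD.Part Cfsg.Agent.H348.PPD.Key Cfsg.Agent.H348.PPD.Aut

namespace Cfsg.Agent.H348.PPD.Uniq

universe u

/-! ### Conjugacy of the powers -/

theorem key_trans {G : Type u} [Group G] [Finite G] {p : ℕ} [Fact p.Prime] {N : Subgroup G} [N.Normal]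
    (h2 : N.index = 2) (hp2 : p ≠ 2) (hsq : ¬ p ^ 2 ∣ Nat.card G) {x : G}
    (hx : orderOf x = p) (hk : Nat.card (centralizer ({x} : Set G) ⊓ N : Subgroup G) = p) {χ : IrrCharacter G}
    (h0 : ∀ g ∉ N, (χ : G → ℂ) g = 0) (hdeg : ¬ p ∣ charDegree (χ : G → ℂ))
    (hm : (Nat.card G / p) % p = p - 1) {y : G} (hy : y ∈ zpowers x) (hy1 : y ≠ 1) : ∃ n : G, n * x * n⁻¹ = y := by
  have hp : p.Prime := Fact.out
  obtain ⟨P, K, D, hPx, hcard, -⟩ := exists_dat h2 hp2 hsq hx (k := 1) (by rw [mul_one]; exact hk)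
  have hle2 : Nat.card K ≤ 2 := by omega
  have hcent : ∀ n ∈ normalizer ((P : Subgroup G) : Set G), ∀ y ∈ K, n * y * n⁻¹ = y := fun n hn y hy =>
    fix_of_card_le hle2 (fun z hz => conj_mem D.hK hn hz) hy
  have hKN := le_of_cent h2 D hcent h0 hdeg
  have hK1 : Nat.card K = 1 := by
    rcases hcard with h | h
    · exact h.1
    · exact absurd hKN h.2
  obtain ⟨e, he, hcardN, hmod⟩ := exists_e D
  rw [hK1, mul_one] at hmod
  have he0 : 0 < e := Nat.pos_of_ne_zero fun h => by
    rw [h, zero_mul] at hcardN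
    exact Nat.card_pos.ne' hcardN.symm
  have hep : e < p := by
    have := Nat.le_of_dvd (by have := hp.one_lt; omega) he
    have := hp.one_lt
    omega
  have hme : (Nat.card G / p) % p = e := by
    have h1 : e % p = (Nat.card G / p) % p := hmod
    rw [← h1, Nat.mod_eq_of_lt hep]
  have hep1 : e = p - 1 := by rw [← hme, hm]
  let θ : IrrCharacter K := ⟨1, isIrr_one⟩
  have hst : ∀ n ∈ normalizer ((P : Subgroup G) : Set G), tw (θ : K → ℂ) n = θ := by
    intro n hn
    funext y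
    rw [tw_apply D.hK _ hn]
    rfl
  have h3 := card_stabAct D.hK D.hP hst
  rw [← hcardN, hep1] at h3
  have h4 : Nat.card (stabAct D.hK (θ : K → ℂ)) = p - 1 :=
    Nat.eq_of_mul_eq_mul_right (Nat.mul_pos hp.pos Nat.card_pos) h3
  have htop : stabAct D.hK (θ : K → ℂ) = ⊤ := by
    apply Subgroup.eq_top_of_card_eq
    rw [h4]
    exact (card_mulAut D.hP).symm
  have hxP : x ∈ (P : Subgroup G) := by rw [hPx]; exact mem_zpowers x
  have hyP : y ∈ (P : Subgroup G) := by rw [hPx]; exact hy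
  have hx1 : x ≠ 1 := by
    rintro rfl
    rw [orderOf_one] at hx
    exact hp.one_lt.ne hx
  obtain ⟨r, hr⟩ := exists_aut D.hP (x := (⟨x, hxP⟩ : P)) (y := ⟨y, hyP⟩) (fun h => hx1 (congrArg Subtype.val h))
    (fun h => hy1 (congrArg Subtype.val h))
  obtain ⟨m, hm, hact, hfix⟩ := (mem_stabAct D.hK (θ : K → ℂ) (r := r)).1 (by rw [htop]; exact mem_top _)
  refine ⟨m, ?_⟩
  have h5 := hact ⟨x, hxP⟩
  rw [hr] at h5
  exact h5.symm

/-! ### Integrality -/

theorem not_half {a : ℂ} (ha : IsIntegral ℤ a) {k : ℤ} (hk : Odd k) : 2 * a ≠ k := by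
  intro h
  have h1 : a = ((k / 2 : ℚ) : ℂ) := by
    push_cast
    rw [← h]
    ring
  have h2 : IsIntegral ℤ (k / 2 : ℚ) := by
    rw [h1] at ha
    exact (isIntegral_algebraMap_iff (algebraMap ℚ ℂ).injective).1 ha
  obtain ⟨m, hm⟩ := IsIntegrallyClosed.isIntegral_iff.1 h2
  have h3 : (m : ℚ) = k / 2 := hm
  have h4 : (2 * m : ℚ) = k := by rw [h3]; ring
  have h5 : 2 * m = k := by exact_mod_cast h4
  obtain ⟨j, hj⟩ := hk
  omega

theorem int_of_rat {a : ℂ} (ha : IsIntegral ℤ a) {q : ℚ} (hq : a = q) : ∃ m : ℤ, a = m := by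
  have h2 : IsIntegral ℤ q := by
    rw [hq] at ha
    exact (isIntegral_algebraMap_iff (algebraMap ℚ ℂ).injective).1 ha
  obtain ⟨m, hm⟩ := IsIntegrallyClosed.isIntegral_iff.1 h2
  refine ⟨m, ?_⟩
  rw [hq, ← hm]
  simp

theorem isIntegral_conj {a : ℂ} (ha : IsIntegral ℤ a) : IsIntegral ℤ (conj a) :=
  ha.map (starRingEnd ℂ : ℂ →+* ℂ).toIntAlgHom

section

variable {S : Type u} [Group S] [Finite S]

/-- The difference of two values which are exchanged or fixed by the conjugations of the powers. -/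
theorem norm_ge {p : ℕ} (hp : p.Prime) {x : S} (hx : orderOf x = p) {χ : S → ℂ} (hχ : IsIrrCharacter S χ)
    {α : MulAut S} (htr : ∀ y ∈ zpowers x, y ≠ 1 → (χ y = χ x ∧ χ (α y) = χ (α x)) ∨
      (χ y = χ (α x) ∧ χ (α y) = χ x)) (hne : χ x ≠ χ (α x)) :
    (p : ℝ) ≤ Complex.normSq (χ x - χ (α x)) := by
  classical
  set δ := χ x - χ (α x) with hδ
  let P := zpowers x
  have := Fintype.ofFinite P
  have hP : Nat.card P = p := by rw [Nat.card_zpowers, hx]
  have hχc := isIrr_isCharacter hχ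
  have hχα : IsCharacter S (χ ∘ α) := isCharacter_comp α.toMonoidHom hχc
  have hr1 : IsCharacter P (fun y : P => χ y) := isCharacter_comp P.subtype hχc
  have hr2 : IsCharacter P (fun y : P => χ (α y)) := isCharacter_comp P.subtype hχα
  obtain ⟨n1, h1⟩ := classInner_isNat hr1 hr1
  obtain ⟨n2, h2⟩ := classInner_isNat hr1 hr2
  obtain ⟨n3, h3⟩ := classInner_isNat hr2 hr1
  obtain ⟨n4, h4⟩ := classInner_isNat hr2 hr2
  have hD : (Nat.card P : ℂ)⁻¹ * ∑ y : P, (χ y - χ (α y)) * conj (χ y - χ (α y)) = ((n1 - n2 - n3 + n4 : ℤ) : ℂ) := by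
    rw [classInner_def] at h1 h2 h3 h4
    push_cast
    rw [← h1, ← h2, ← h3, ← h4, ← mul_sub, ← mul_sub, ← mul_add]
    congr 1
    rw [← Finset.sum_sub_distrib, ← Finset.sum_sub_distrib, ← Finset.sum_add_distrib]
    refine Finset.sum_congr rfl fun y _ => ?_
    rw [map_sub]
    ring
  have hval : ∀ y : P, (χ y - χ (α y)) * conj (χ y - χ (α y)) = if y = 1 then 0 else δ * conj δ := by
    intro y
    split_ifs with hy
    · rw [hy]
      simp
    · rcases htr y y.2 (fun h => hy (Subtype.ext h)) with ⟨e1, e2⟩ | ⟨e1, e2⟩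
      · rw [e1, e2]
      · rw [e1, e2, hδ]
        simp only [map_sub]
        ring
  rw [Finset.sum_congr rfl (fun y _ => hval y), Finset.sum_ite, Finset.sum_const_zero, zero_add, Finset.sum_const,
    hP] at hD
  have hcard : (Finset.univ.filter (fun y : P => ¬ y = 1)).card = p - 1 := by
    rw [Finset.filter_not, Finset.card_sdiff]
    simp only [Finset.card_univ, Finset.inter_univ]
    rw [← Nat.card_eq_fintype_card, hP, Finset.filter_eq' Finset.univ (1 : P)]
    simp
  rw [hcard, nsmul_eq_mul] at hD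
  set k : ℤ := n1 - n2 - n3 + n4 with hk
  have hp0 : (p : ℂ) ≠ 0 := by exact_mod_cast hp.ne_zero
  have hp1 : 1 < p := hp.one_lt
  have hD2 : ((p - 1 : ℕ) : ℂ) * (δ * conj δ) = p * k := by
    rw [← hD]
    field_simp
  have hp1' : ((p - 1 : ℕ) : ℂ) ≠ 0 := by
    have : p - 1 ≠ 0 := by omega
    exact_mod_cast this
  have hint : IsIntegral ℤ (δ * conj δ) := by
    have e1 := Cfsg.Agent.Characters.GaloisBasic.isIntegral_apply hχc x
    have e2 := Cfsg.Agent.Characters.GaloisBasic.isIntegral_apply hχc (α x)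
    have e3 : IsIntegral ℤ δ := e1.sub e2
    exact e3.mul (isIntegral_conj e3)
  obtain ⟨m, hm⟩ := int_of_rat hint (q := (p * k / (p - 1 : ℕ) : ℚ)) (by
    push_cast
    rw [eq_div_iff (by exact_mod_cast hp1'), mul_comm, ← hD2])
  have h5 : ((p - 1 : ℕ) : ℤ) * m = p * k := by
    rw [hm] at hD2
    exact_mod_cast hD2
  have h6 : (p : ℤ) ∣ m := by
    have h7 : (p : ℤ) ∣ ((p - 1 : ℕ) : ℤ) * m := ⟨k, h5⟩
    have h8 : IsCoprime (p : ℤ) ((p - 1 : ℕ) : ℤ) := by
      rw [Nat.isCoprime_iff_coprime]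
      exact (Nat.coprime_self_sub_right (by omega)).2 (Nat.coprime_one_right _)
    exact h8.dvd_of_dvd_mul_left h7
  have h7 : (Complex.normSq δ : ℂ) = m := by rw [← hm, Complex.mul_conj]
  have h8 : Complex.normSq δ = m := by exact_mod_cast h7
  have h9 : 0 < Complex.normSq δ := Complex.normSq_pos.2 (sub_ne_zero.2 hne)
  rw [h8] at h9 ⊢
  have h10 : 0 < m := by exact_mod_cast h9
  have h11 := Int.le_of_dvd h10 h6
  exact_mod_cast h11

/-- All nontrivial powers of `x` are images of `x` under automorphisms. -/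
theorem aut_trans (hc : center S = ⊥) (hidx : (MulAut.conj : S →* MulAut S).range.index = 2)
    {r : ℕ} (hr : r.Prime) (hr2 : r ≠ 2) (hsq : ¬ r ^ 2 ∣ Nat.card S) {x : S} (hx : orderOf x = r)
    (hk : Nat.card (centralizer ({x} : Set S)) = r) {d : ℕ} (B : BadData S d) (hd : ¬ r ∣ d)
    (hm : (2 * Nat.card S / r) % r = r - 1) {y : S} (hy : y ∈ zpowers x) (hy1 : y ≠ 1) :
    ∃ β : MulAut S, β x = y := by
  have : Fact r.Prime := ⟨hr⟩
  obtain ⟨n, hn⟩ := key_trans (p := r) (x := MulAut.conj x) hidx hr2 (by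
      rw [Crit.card_aut hc hidx]
      intro h
      refine hsq ((Nat.Coprime.dvd_of_dvd_mul_left ?_ h))
      exact Nat.Coprime.pow_left _ ((Nat.coprime_primes hr Nat.prime_two).2 hr2))
    (by rw [Crit.orderOf_conj hc, hx]) (by rw [Crit.card_cent hc, hk]) (χ := B.ψ) B.zero (by
      rw [Crit.charDegree_psi hidx]
      intro h
      rcases hr.dvd_mul.1 h with h | h
      · exact hr2 ((Nat.prime_dvd_prime_iff_eq hr Nat.prime_two).1 h)
      · exact hd h) (by rw [Crit.card_aut hc hidx, hm]) (y := MulAut.conj y) (by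
      obtain ⟨k, rfl⟩ := hy
      exact ⟨k, by simp⟩) (fun h => hy1 (conj_injective hc (by rw [h, map_one])))
  refine ⟨n, conj_injective hc ?_⟩
  rw [← conj_apply_conj, hn]

theorem char_aut_inner {χ : S → ℂ} (hχ : IsIrrCharacter S χ) {β : MulAut S}
    (hβ : β ∈ (MulAut.conj : S →* MulAut S).range) (s : S) : χ (β s) = χ s := by
  obtain ⟨t, rfl⟩ := hβ
  rw [MulAut.conj_apply]
  exact isIrr_isClassFunction hχ s t

theorem mul_mem_range (hidx : (MulAut.conj : S →* MulAut S).range.index = 2) {α β : MulAut S}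
    (hα : α ∉ (MulAut.conj : S →* MulAut S).range) (hβ : β ∉ (MulAut.conj : S →* MulAut S).range) :
    α * β ∈ (MulAut.conj : S →* MulAut S).range := by
  rw [Subgroup.mul_mem_iff_of_index_two hidx]
  simp [hα, hβ]

/-- The values of an irreducible character at the powers of `x`. -/
theorem htr_of (hc : center S = ⊥) (hidx : (MulAut.conj : S →* MulAut S).range.index = 2)
    {r : ℕ} (hr : r.Prime) (hr2 : r ≠ 2) (hsq : ¬ r ^ 2 ∣ Nat.card S) {x : S} (hx : orderOf x = r)
    (hk : Nat.card (centralizer ({x} : Set S)) = r) {d : ℕ} (B : BadData S d) (hd : ¬ r ∣ d)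
    (hm : (2 * Nat.card S / r) % r = r - 1) {α : MulAut S} (hα : α ∉ (MulAut.conj : S →* MulAut S).range)
    {χ : S → ℂ} (hχ : IsIrrCharacter S χ) :
    ∀ y ∈ zpowers x, y ≠ 1 → (χ y = χ x ∧ χ (α y) = χ (α x)) ∨ (χ y = χ (α x) ∧ χ (α y) = χ x) := by
  intro y hy hy1
  obtain ⟨β, rfl⟩ := aut_trans hc hidx hr hr2 hsq hx hk B hd hm hy hy1
  by_cases hβ : β ∈ (MulAut.conj : S →* MulAut S).range
  · left
    refine ⟨char_aut_inner hχ hβ x, ?_⟩
    have h1 : α (β x) = (α * β * α⁻¹) (α x) := by simp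
    rw [h1]
    exact char_aut_inner hχ (normal_range_conj.conj_mem β hβ α) _
  · right
    constructor
    · have h1 : β x = (β * α⁻¹) (α x) := by simp
      rw [h1]
      exact char_aut_inner hχ (mul_mem_range hidx hβ (fun h => hα (by simpa using inv_mem h))) _
    · have h1 : α (β x) = (α * β) x := rfl
      rw [h1]
      exact char_aut_inner hχ (mul_mem_range hidx hα hβ) _

/-- **Uniqueness**: an irreducible character with the values of a noninvariant character at a self-centralizing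
element of prime order and its image is this character. -/
theorem eq_of_values (hc : center S = ⊥) (hidx : (MulAut.conj : S →* MulAut S).range.index = 2)
    {r : ℕ} (hr : r.Prime) (hr2 : r ≠ 2) (hsq : ¬ r ^ 2 ∣ Nat.card S) {x : S} (hx : orderOf x = r)
    (hk : Nat.card (centralizer ({x} : Set S)) = r) {d : ℕ} (B : BadData S d) (hd : ¬ r ∣ d)
    (hm : (2 * Nat.card S / r) % r = r - 1) {α : MulAut S} (hα : α ∉ (MulAut.conj : S →* MulAut S).range)
    {φ : IrrCharacter S} (h1 : (φ : S → ℂ) x = (B.χ : S → ℂ) x)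
    (h2 : (φ : S → ℂ) (α x) = (B.χ : S → ℂ) (α x)) : φ = B.χ := by
  classical
  have := finite_irr (G := S)
  have := Fintype.ofFinite (IrrCharacter S)
  set a := (B.χ : S → ℂ) x with ha
  set b := (B.χ : S → ℂ) (α x) with hb
  have hia : IsIntegral ℤ a := Cfsg.Agent.Characters.GaloisBasic.isIntegral_apply (isIrr_isCharacter B.χ.2) x
  obtain ⟨k, hk1, hval⟩ := ((Crit.one hc hidx hr hr2 hsq hx hk B hd).2 hm).2
  rw [B.val α hα x, ← ha, ← hb] at hval
  have hab : a ≠ b := by
    intro h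
    rw [← h, ← two_mul] at hval
    refine not_half hia (k := k) ?_ hval
    rcases hk1 with rfl | rfl
    · exact odd_one
    · exact ⟨-1, by norm_num⟩
  have hnorm := norm_ge hr hx B.χ.2 (α := α) (htr_of hc hidx hr hr2 hsq hx hk B hd hm hα B.χ.2) hab
  -- `|a|² + |b|²`
  have hpar : Complex.normSq (a + b) + Complex.normSq (a - b) = 2 * (Complex.normSq a + Complex.normSq b) := by
    rw [Complex.normSq_add, Complex.normSq_sub]
    ring
  have hab1 : Complex.normSq (a + b) = 1 := by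
    rw [hval]
    rcases hk1 with rfl | rfl <;> simp
  -- the five characters
  by_contra hne
  let tw' : IrrCharacter S → IrrCharacter S := fun θ =>
    ⟨(θ : S → ℂ) ∘ α, isIrr_comp α.toMonoidHom α.surjective θ.2⟩
  have htwv : ∀ (θ : IrrCharacter S) (s : S), (tw' θ : S → ℂ) s = (θ : S → ℂ) (α s) := fun θ s => rfl
  let one' : IrrCharacter S := ⟨1, isIrr_one⟩
  have hone : ∀ s, (one' : S → ℂ) s = 1 := fun s => rfl
  have e1 : B.χ ≠ one' := fun h => hab (by rw [ha, hb, h, hone, hone])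
  have e2 : tw' B.χ ≠ one' := by
    intro h
    have h3 := congrArg (fun θ : IrrCharacter S => (θ : S → ℂ) (α⁻¹ (α x))) h
    have h4 := congrArg (fun θ : IrrCharacter S => (θ : S → ℂ) x) h
    simp only [htwv, hone] at h4
    have h5 := congrArg (fun θ : IrrCharacter S => (θ : S → ℂ) (α x)) h
    simp only [htwv, hone] at h5
    have h6 : (B.χ : S → ℂ) (α (α x)) = (B.χ : S → ℂ) x :=
      char_aut_inner B.χ.2 (β := α * α) (mul_mem_range hidx hα hα) x
    exact hab (by rw [ha, hb, h4, ← h6, h5])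
  have htt : ∀ θ : IrrCharacter S, (θ : S → ℂ) (α (α x)) = (θ : S → ℂ) x := fun θ =>
    char_aut_inner θ.2 (β := α * α) (mul_mem_range hidx hα hα) x
  have e3 : tw' B.χ ≠ B.χ := by
    intro h
    have h4 := congrArg (fun θ : IrrCharacter S => (θ : S → ℂ) x) h
    exact hab h4.symm
  have e4 : φ ≠ one' := fun h => hab (by rw [← h1, ← h2, h, hone, hone])
  have e5 : φ ≠ tw' B.χ := by
    intro h
    have h4 := congrArg (fun θ : IrrCharacter S => (θ : S → ℂ) x) h
    simp only [htwv] at h4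
    rw [h1] at h4
    exact hab h4
  have e6 : tw' φ ≠ one' := by
    intro h
    have h4 := congrArg (fun θ : IrrCharacter S => (θ : S → ℂ) x) h
    have h5 := congrArg (fun θ : IrrCharacter S => (θ : S → ℂ) (α x)) h
    simp only [htwv, hone] at h4 h5
    rw [htt] at h5
    exact hab (by rw [← h1, ← h2, h4, h5])
  have e7 : tw' φ ≠ B.χ := by
    intro h
    have h4 := congrArg (fun θ : IrrCharacter S => (θ : S → ℂ) x) h
    simp only [htwv] at h4
    rw [h2] at h4
    exact hab h4.symm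
  have e8 : tw' φ ≠ tw' B.χ := by
    intro h
    apply hne
    apply Subtype.ext
    funext s
    have h4 := congrArg (fun θ : IrrCharacter S => (θ : S → ℂ) (α⁻¹ s)) h
    simpa [htwv] using h4
  have e9 : tw' φ ≠ φ := by
    intro h
    have h4 := congrArg (fun θ : IrrCharacter S => (θ : S → ℂ) x) h
    simp only [htwv] at h4
    rw [h1, h2] at h4
    exact hab h4.symm
  have hsum := Cfsg.Agent.H686.CharKit.sum_normSq (G := S) x
  rw [hk] at hsum
  let T : Finset (IrrCharacter S) := {one', B.χ, tw' B.χ, φ, tw' φ}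
  have hT : ∑ θ ∈ T, Complex.normSq ((θ : S → ℂ) x) ≤ ∑ θ : IrrCharacter S, Complex.normSq ((θ : S → ℂ) x) :=
    Finset.sum_le_univ_sum_of_nonneg fun θ => Complex.normSq_nonneg _
  have hT2 : ∑ θ ∈ T, Complex.normSq ((θ : S → ℂ) x) =
      1 + (Complex.normSq a + (Complex.normSq b + (Complex.normSq a + Complex.normSq b))) := by
    rw [Finset.sum_insert, Finset.sum_insert, Finset.sum_insert, Finset.sum_insert, Finset.sum_singleton]
    · rw [htwv, htwv, hone, h1, h2, Complex.normSq_one]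
    · simpa using e9.symm
    · simp only [Finset.mem_insert, Finset.mem_singleton, not_or]
      exact ⟨e5.symm, e8.symm⟩
    · simp only [Finset.mem_insert, Finset.mem_singleton, not_or]
      exact ⟨e3.symm, fun h => hne h.symm, e7.symm⟩
    · simp only [Finset.mem_insert, Finset.mem_singleton, not_or]
      exact ⟨e1.symm, e2.symm, e4.symm, e6.symm⟩
  rw [hT2, hsum] at hT
  linarith

/-- **Galois conjugates**: the values at the elements of order prime to `r` are fixed. -/
theorem galois_fixed (hc : center S = ⊥) (hidx : (MulAut.conj : S →* MulAut S).range.index = 2)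
    {r : ℕ} (hr : r.Prime) (hr2 : r ≠ 2) (hsq : ¬ r ^ 2 ∣ Nat.card S) {x : S} (hx : orderOf x = r)
    (hk : Nat.card (centralizer ({x} : Set S)) = r) {d : ℕ} (B : BadData S d) (hd : ¬ r ∣ d)
    (hm : (2 * Nat.card S / r) % r = r - 1) {m : ℕ} (hm1 : m.Coprime (Nat.card S)) (hm2 : m % r = 1) (s : S) :
    (B.χ : S → ℂ) (s ^ m) = (B.χ : S → ℂ) s := by
  obtain ⟨α, hα⟩ := Crit.exists_outer hidx
  obtain ⟨σ, hσ⟩ := Cfsg.Agent.Characters.GaloisBasic.exists_ringEquiv_of_coprime (G := S) hm1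
  have hσχ := hσ _ (isIrr_isCharacter B.χ.2)
  let φ : IrrCharacter S := ⟨fun g => σ ((B.χ : S → ℂ) g), Cfsg.Agent.Characters.GaloisIrr.isIrr_map σ B.χ.2⟩
  have hφ : ∀ g, (φ : S → ℂ) g = (B.χ : S → ℂ) (g ^ m) := fun g => hσχ g
  have hpow : ∀ y : S, orderOf y = r → y ^ m = y := by
    intro y hy
    have h1 : y ^ m = y ^ 1 := by
      rw [pow_eq_pow_iff_modEq, hy]
      rw [Nat.ModEq, hm2, Nat.mod_eq_of_lt hr.one_lt]
    rw [h1, pow_one]
  have key := eq_of_values hc hidx hr hr2 hsq hx hk B hd hm hα (φ := φ) (by rw [hφ, hpow x hx])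
    (by rw [hφ, hpow (α x) (by rw [MulEquiv.orderOf_eq, hx])])
  rw [← hφ, key]

end

end Cfsg.Agent.H348.PPD.Uniq
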